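import Cfsg.Agent.H58.Walk
import Cfsg.Agent.H58.Fi24P3
import Cfsg.Agent.H58.HeP
import Cfsg.Agent.H58.Fi23P

set_option autoImplicit false
set_option Elab.async false
set_option maxRecDepth 100000
set_option linter.constructorNameAsVariable false
set_option exponentiation.threshold 400000

namespace Cfsg.Agent.H58.Fi24P

open Cfsg Cfsg.Agent.H58 H56

theorem base : M.IsBase [51, 6940, 24, 1226, 87475, 0] := by
  have := finite
  have h0 : H ≤ M.fixK ⊤ [0] := le_inf le_top index_H.2.le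
  have h1 : clL el [1, 2, 3, 4, 5, 6, 7, 8, 9] ≤ M.fixK ⊤ [87475, 0] :=
    le_inf ((clL_mono el _ _ (by decide)).trans h0) (M.clL_le_St fh1)
  have h2 : Y ≤ M.fixK ⊤ [1226, 87475, 0] :=
    le_inf ((clL_mono el _ _ (by decide)).trans h1) (M.clL_le_St fy1)
  have h3 := fun x hx => h2 (el_mem_closure el [1, 2, 3, 4, 5, 6, 8, 9] x hx)
  have a5 := M.lev_step2 [1226, 87475, 0] (wv_mem_letters h3 (by decide)) lyf2 lyo2 le_rfl
  have a4 := M.lev_step2 [1226, 87475, 0] (wv_mem_letters h3 (by decide)) lyf1 lyo1 a5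
  have a3 := M.lev_step2 [1226, 87475, 0] (wv_mem_letters h3 (by decide)) lyf0 lyo0 a4
  have a2 := M.lev_step2 [87475, 0] (wv_mem_letters (fun x hx =>
    h1 (el_mem_closure el [1, 2, 3, 4, 5, 6, 7, 8, 9] x hx)) (by decide)) (fixErr_nil _ _) oh1 a3
  have a1 := M.lev_step2 [0] (wv_mem_letters (fun x hx => h0 (el_mem_closure el
    [1, 2, 3, 4, 5, 6, 7, 8, 9, 10, 12] x hx)) (by decide)) (fixErr_nil _ _) oh0 a2
  have a0 := M.chain_step (K := ⊤) (K' := M.fixK ⊤ [0]) le_top inf_le_right trans a1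
  exact M.isBase_of inj card_eq (le_trans (by simp only [← mul_assoc]; rfl) a0)

/-- the action of the letters read from the coset table -/
noncomputable def step : ℕ → ℕ → ℕ := tstep F24A.tbl F24A.clo 4200895 11

theorem bn51 : appW F24M.nets [4, 8, 7, 6, 5, 4, 3, 2, 1, 11] (Nat.pow 2 51) = Nat.pow 2 0 := by decide +kernel
theorem bw51 : pwalk step [4, 8, 7, 6, 5, 4, 3, 2, 1, 11] 0 = 51 + 1 := by decide +kernel
theorem bn6940 : appW F24M.nets [7, 10, 8, 6, 4, 5, 3, 4, 8, 9, 6, 5, 2, 3, 4, 8, 7, 6, 5, 4, 3, 2, 1, 11] (Nat.pow 2 6940) = Nat.pow 2 0 := by decide +kernel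
theorem bw6940 : pwalk step [7, 10, 8, 6, 4, 5, 3, 4, 8, 9, 6, 5, 2, 3, 4, 8, 7, 6, 5, 4, 3, 2, 1, 11] 0 = 6940 + 1 := by decide +kernel
theorem bn24 : appW F24M.nets [7, 6, 5, 4, 3, 2, 1, 11] (Nat.pow 2 24) = Nat.pow 2 0 := by decide +kernel
theorem bw24 : pwalk step [7, 6, 5, 4, 3, 2, 1, 11] 0 = 24 + 1 := by decide +kernel
theorem bn1226 : appW F24M.nets [7, 6, 5, 4, 3, 2, 1, 11, 10, 8, 4, 5, 3, 4, 8, 2, 3, 4, 5, 1, 2, 3, 4, 8, 7, 6, 5, 4, 3, 2, 1, 11] (Nat.pow 2 1226) = Nat.pow 2 0 := by decide +kernel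
theorem bw1226 : pwalk step [7, 6, 5, 4, 3, 2, 1, 11, 10, 8, 4, 5, 3, 4, 8, 2, 3, 4, 5, 1, 2, 3, 4, 8, 7, 6, 5, 4, 3, 2, 1, 11] 0 = 1226 + 1 := by decide +kernel
theorem bn87475 : appW F24M.nets [10, 7, 6, 5, 4, 3, 2, 1, 11, 8, 4, 5, 6, 7, 10, 3, 4, 5, 6, 2, 3, 4, 5, 1, 2, 3, 4, 8, 7, 6, 5, 4, 3, 2, 1, 11] (Nat.pow 2 87475) = Nat.pow 2 0 := by decide +kernel
theorem bw87475 : pwalk step [10, 7, 6, 5, 4, 3, 2, 1, 11, 8, 4, 5, 6, 7, 10, 3, 4, 5, 6, 2, 3, 4, 5, 1, 2, 3, 4, 8, 7, 6, 5, 4, 3, 2, 1, 11] 0 = 87475 + 1 := by decide +kernel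

/-- words are checked on six nodes of the coset table -/
theorem ruleOK_words {ws rels' : List (List ℕ)} {iv' : ℕ}
    (h : loopsOK (wstep step ws) (((List.range 64).map fun x => [ivf iv' x, x]) ++ rels')
      [51, 6940, 24, 1226, 87475, 0] = true) (hlt : allLt rels' = true) :
    RuleOK (elX el iv 1 ws) rels' iv' := by
  let _ : MulAction Spor.Fi24 ℕ := MulAction.compHom ℕ M.φ
  obtain ⟨c, h0, hc⟩ := M.exists_nodes F24A.good R (p := 0)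
    (fun x hx => index_H.2.le (el_mem_closure el _ x hx)) (i1 := 4200895) (by decide) 11
  have k : ∀ {w q}, appW F24M.nets w (Nat.pow 2 q) = Nat.pow 2 0 → pwalk step w 0 = q + 1 →
      c q = q := fun a b => by rw [← hc.pwalk _ b, h0]; exact M.apply_wv' a
  have k2 : ∀ q ∈ [51, 6940, 24, 1226, 87475, 0], c q = q := (forall_cons (k bn51 bw51) (forall_cons (k bn6940 bw6940) (forall_cons (k bn24 bw24) (forall_cons (k bn1226 bw1226) (forall_cons (k bn87475 bw87475) (forall_cons h0 (forall_nil' _)))))))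
  exact ruleOK_of_loops (el := elX el iv 1 ws) R.h0 ((hc.wstep R.h0 iv ws).eq_one
    (fun g hg => base g fun q hq => by have := hg q hq; rwa [k2 q hq] at this) h) hlt

def hews : List (List ℕ) := [[3, 11],
  [10, 7, 6, 5, 4, 8, 9, 4, 5, 2, 3, 4, 8, 6, 5, 4, 3, 2, 1, 2, 3, 4, 5, 6, 8, 4, 3, 2, 5, 4, 9, 8, 4, 5, 6, 7, 10, 7, 10, 9, 6, 5, 4, 8, 7, 6, 5, 4, 3, 4, 5, 6, 7, 8, 4, 5, 6, 9, 10, 7],
  [4, 8, 7, 6, 5, 4, 3, 4, 5, 6, 7, 8, 4, 1, 11, 6, 4, 5, 3, 4, 8, 9, 3, 4, 5, 2, 3, 4, 8, 7, 6, 5, 4, 3, 2, 1, 2, 3, 4, 5, 6, 7, 8, 4, 3, 2, 5, 4, 3, 9, 8, 4, 3, 5, 4, 6, 11, 1],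
  [5, 2, 1, 11, 10, 6, 5, 3, 4, 8, 9, 2, 3, 4, 8, 7, 6, 5, 4, 3, 2, 1, 2, 3, 4, 5, 6, 7, 8, 4, 3, 2, 9, 8, 4, 3, 5, 6, 10, 11, 1, 2, 10, 9, 8, 7, 6, 5, 4, 3, 2, 3, 4, 5, 6, 7, 8, 9, 10, 4, 5, 3, 4, 8, 9, 4, 5, 3, 4, 8, 6, 5, 4, 3, 2, 3, 4, 5, 6, 8, 4, 3, 5, 4, 9, 8, 4, 3, 5, 4],
  [4, 8, 7, 6, 5, 4, 3, 4, 5, 6, 7, 8, 4, 1, 11, 8, 4, 5, 3, 4, 8, 9, 8, 4, 5, 2, 3, 4, 8, 7, 6, 5, 4, 3, 2, 1, 2, 3, 4, 5, 6, 7, 8, 4, 3, 2, 5, 4, 8, 9, 8, 4, 3, 5, 4, 8, 11, 1, 3, 11],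
  [5, 1, 11, 9, 2, 3, 4, 8, 5, 4, 3, 2, 1, 2, 3, 4, 5, 8, 4, 3, 2, 9, 11, 1, 9, 8, 9, 1, 11, 8, 4, 5, 3, 4, 8, 9, 2, 3, 4, 8, 5, 4, 3, 2, 1, 2, 3, 4, 5, 8, 4, 3, 2, 9, 8, 4, 3, 5, 4, 8, 11, 1],
  [8, 4, 5, 3, 4, 8, 9, 6, 5, 3, 4, 8, 7, 6, 5, 4, 3, 2, 3, 4, 5, 6, 7, 8, 4, 3, 5, 6, 9, 8, 4, 3, 5, 4, 8, 10, 5, 4, 8, 7, 6, 5, 4, 3, 4, 5, 6, 7, 8, 4, 5, 10, 7, 10, 9, 6, 5, 4, 8, 7, 6, 5, 4, 3, 4, 5, 6, 7, 8, 4, 5, 6, 9, 10, 7, 2, 1, 11, 3, 4, 5, 2, 3, 4, 8, 6, 5, 4, 3, 2, 1, 2, 3, 4, 5, 6, 8, 4, 3, 2, 5, 4, 3, 11, 1, 2]]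

theorem he_ok : loopsOK (wstep step hews) (((List.range 64).map fun x => [ivf HeM.iv x, x]) ++ HeM.rels)
    [51, 6940, 24, 1226, 87475, 0] = true := by decide +kernel

/-- the embedding of He -/
noncomputable def heHom : Spor.He →* Spor.Fi24 :=
  coxHom _ _ (ruleOK_words he_ok (by decide +kernel)) (fun g => (HeP.hc g).2) HeP.homM

theorem he_mv : appW F24M.nets [3, 11] (Nat.pow 2 1) = Nat.pow 2 0 := by decide +kernel

theorem heHom_inj : Function.Injective heHom :=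
  have := HeP.simple
  injective_of_simple heHom (g := PresentedGroup.of .a) (by
    rw [heHom, coxHom, PresentedGroup.toGroup.of]; exact M.wv_ne_one he_mv (by decide))

def f23ws : List (List ℕ) := [1, 2, 3, 4, 5, 6, 7, 8, 9, 10].map fun x =>
  x :: (List.replicate 9 [1, 2, 3, 4, 5, 6, 8]).flatten

theorem f23_ok : loopsOK (wstep step f23ws)
    (((List.range 64).map fun x => [ivf Fi23M.iv x, x]) ++ Fi23M.rels)
    [51, 6940, 24, 1226, 87475, 0] = true := by decide +kernel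

/-- the embedding of Fi23: a letter `x` goes to `x l` -/
noncomputable def f23Hom : Spor.Fi23 →* Spor.Fi24 :=
  coxHom _ _ (ruleOK_words f23_ok (by decide +kernel)) (fun g => (Fi23P.hc g).2) Fi23P.homM

theorem f23_mv : appW F24M.nets (f23ws.getD 0 []) (Nat.pow 2 5) = Nat.pow 2 1 := by decide +kernel

theorem f23Hom_inj : Function.Injective f23Hom :=
  have := Fi23P.simple
  injective_of_simple f23Hom (g := PresentedGroup.of .a) (by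
    rw [f23Hom, coxHom, PresentedGroup.toGroup.of]; exact M.wv_ne_one f23_mv (by decide))

theorem f23Hom_le : f23Hom.range ≤ H := by
  rw [MonoidHom.range_eq_map, Subgroup.map_le_iff_le_comap, top_le_iff]
  refine closure_letters_eq_top Fi23P.hc _ fun g => ?_
  rw [(Fi23P.hc g).1]
  change f23Hom (PresentedGroup.of g) ∈ H
  rw [f23Hom, coxHom, PresentedGroup.toGroup.of]
  exact elX_mem iv 1 f23ws (mem_clL el [1, 2, 3, 4, 5, 6, 7, 8, 9, 10, 12] [1, 2, 3, 4, 5, 6, 7, 8, 9, 10]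
    (by decide)) [1, 2, 3, 4, 5, 6, 7, 8, 9, 10] (by decide +kernel) _ (by cases g <;> decide)

theorem range_le_commutator {P : Type*} [Group P] [IsSimpleGroup P] (f : P →* Spor.Fi24)
    (h : 2 < Nat.card P) : f.range ≤ commutator Spor.Fi24 := by
  rw [MonoidHom.range_eq_map, Subgroup.map_le_iff_le_comap, top_le_iff]
  refine (IsSimpleGroup.eq_bot_or_eq_top_of_normal _ inferInstance).resolve_left fun e => ?_
  have h1 := (commutator Spor.Fi24).index_comap f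
  rw [e, Subgroup.index_bot] at h1
  have h2 := Subgroup.relIndex_dvd_index_of_normal (commutator Spor.Fi24) f.range
  rw [index_commutator, ← h1] at h2
  exact absurd (Nat.le_of_dvd two_pos h2) (by omega)

theorem exists_sub {P : Type*} [Group P] [IsSimpleGroup P] (f : P →* Spor.Fi24)
    (hf : Function.Injective f) (h : 2 < Nat.card P) :
    ∃ K : Subgroup (commutator Spor.Fi24), Nonempty (K ≃* P) :=
  ⟨_, ⟨(Subgroup.subgroupOfEquivOfLe (range_le_commutator f h)).trans (MonoidHom.ofInjective hf).symm⟩⟩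

end Cfsg.Agent.H58.Fi24P
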