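import Cfsg.Agent.H58.Graph3

/-! Evaluating words on points by walking through the table of a coset enumeration certificate. -/

set_option autoImplicit false

namespace Cfsg.Agent.H58

/-- the image of node `c` under the letter `x`, plus one (zero on failure) -/
noncomputable def tstep (tbl clo : ℕ → ℕ) (i1 ng x c : ℕ) : ℕ :=
  frc (fun i => Bool.rec (motive := fun _ => ℕ) 0
      (Bool.rec (motive := fun _ => ℕ) 0 (Nat.succ (Nat.shiftRight (half tbl (Nat.xor i 1)) 6))
        (Nat.beq (half tbl i) (Nat.add (Nat.mul c 64) x))) (Nat.ble x 63))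
    (Nat.sub i1 (Nat.land (Nat.shiftRight (frc clo (Nat.shiftRight c 3))
      (Nat.mul (Nat.add (Nat.mul (Nat.land c 7) ng) (Nat.sub ng x)) 23)) 8388607))

/-- iterate a partial step function along a word, rightmost letter first -/
noncomputable def pwalk (f : ℕ → ℕ → ℕ) (w : List ℕ) (p : ℕ) : ℕ :=
  List.rec (motive := fun _ => ℕ) (Nat.succ p)
    (fun x _ ih => Nat.rec (motive := fun _ => ℕ) 0 (fun c _ => f x c) ih) w

/-- the step function of word letters -/
noncomputable def wstep (f : ℕ → ℕ → ℕ) (ws : List (List ℕ)) (x c : ℕ) : ℕ :=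
  Nat.rec (motive := fun _ => ℕ) (Nat.succ c) (fun y _ => pwalk f (ws.getD y []) c) x

/-- every word returns to each of the nodes -/
noncomputable def loopsOK (f : ℕ → ℕ → ℕ) (rs : List (List ℕ)) (ps : List ℕ) : Bool :=
  rs.all fun r => ps.all fun p => Nat.beq (pwalk f r p) (Nat.succ p)

variable {G : Type*} [Group G] {Ω : Type*} [MulAction G Ω]

/-- `f` computes the action of the letters on the nodes -/
def StepOK (el : ℕ → G) (c : ℕ → Ω) (f : ℕ → ℕ → ℕ) : Prop :=
  ∀ x p q, f x p = q + 1 → el x • c p = c q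

theorem tstep_ok {el : ℕ → G} {c : ℕ → Ω} {tbl : ℕ → ℕ} {i1 : ℕ} (h : ∀ i ≤ i1, Valid el c tbl i)
    (clo : ℕ → ℕ) (ng : ℕ) : StepOK el c (tstep tbl clo i1 ng) := by
  intro x p q e
  rw [tstep, frc_eq] at e
  generalize hi : Nat.sub i1 _ = i at e
  have hv : Valid el c tbl i := h i (hi ▸ Nat.sub_le _ _)
  cases h1 : Nat.ble x 63 <;> rw [h1] at e
  · exact absurd e (by simp)
  cases h2 : Nat.beq (half tbl i) (Nat.add (Nat.mul p 64) x) <;> rw [h2] at e
  · exact absurd e (by simp)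
  have h3 : x ≤ 63 := Nat.le_of_ble_eq_true h1
  have h4 : half tbl i = p * 64 + x := Nat.eq_of_beq_eq_true h2
  have h5 : half tbl (i ^^^ 1) / 64 = q := (shr6 _).symm.trans (Nat.succ.inj e)
  rw [Valid, h4, h5, show (p * 64 + x) % 64 = x by omega, show (p * 64 + x) / 64 = p by omega] at hv
  exact hv

theorem StepOK.pwalk {el : ℕ → G} {c : ℕ → Ω} {f : ℕ → ℕ → ℕ} (h : StepOK el c f) (w : List ℕ)
    {p q : ℕ} (e : pwalk f w p = q + 1) : wv el w • c p = c q := by
  induction w generalizing q with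
  | nil => rw [show q = p from (Nat.succ.inj e).symm]; exact one_smul _ _
  | cons x w ih =>
    have e' : Nat.rec (motive := fun _ => ℕ) 0 (fun c _ => f x c) (H58.pwalk f w p) = q + 1 := e
    cases h1 : H58.pwalk f w p with
    | zero => rw [h1] at e'; exact absurd e' (by simp)
    | succ r =>
      rw [h1] at e'
      rw [wv, List.map_cons, List.prod_cons, mul_smul]
      exact (congrArg _ (ih h1)).trans (h x r q e')

theorem StepOK.wstep {el : ℕ → G} {c : ℕ → Ω} {f : ℕ → ℕ → ℕ} (h : StepOK el c f)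
    (h0 : el 0 = 1) (iv : ℕ) (ws : List (List ℕ)) : StepOK (elX el iv 1 ws) c (wstep f ws) := by
  intro x p q e
  cases x with
  | zero => rw [elX, if_pos (by omega), h0, one_smul, show q = p from (Nat.succ.inj e).symm]
  | succ y => rw [elX, if_neg (by omega)]; exact h.pwalk _ e

theorem StepOK.eq_one {el : ℕ → G} {c : ℕ → Ω} {f : ℕ → ℕ → ℕ} (h : StepOK el c f) {ps : List ℕ}
    (hb : ∀ g : G, (∀ p ∈ ps, g • c p = c p) → g = 1) {rs : List (List ℕ)}
    (e : loopsOK f rs ps = true) : ∀ r ∈ rs, wv el r = 1 := by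
  simp only [loopsOK, List.all_eq_true, Nat.beq_eq] at e
  exact fun r hr => hb _ fun p hp => h.pwalk r (e r hr p hp)

/-- the nodes of a certificate as points of a model -/
theorem Model.exists_nodes (M : Model G) {C : Cert} {rels : List (List ℕ)} {iv : ℕ}
    (hC : C.Good rels iv) (R : RuleOK M.el rels iv) {p : ℕ} (hfix : ∀ x ∈ C.fixL, M.el x ∈ M.St p)
    {i1 : ℕ} (hi : i1 < 64 * (C.q0 + C.J)) (ng : ℕ) :
    letI : MulAction G ℕ := MulAction.compHom ℕ M.φ
    ∃ c : ℕ → ℕ, c 0 = p ∧ StepOK M.el c (tstep C.tbl C.clo i1 ng) := by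
  let _ : MulAction G ℕ := MulAction.compHom ℕ M.φ
  exact ⟨_, cfun_zero _ _ _ _, tstep_ok (fun i h =>
    all_valid R hC.ht p hfix hC.hq hC.hdef hC.hax hC.hch i (by omega)) _ _⟩

theorem Model.lev_step2 (M : Model G) [Finite G] (l : List ℕ) {prev : List ℕ} {p : ℕ}
    {ws : List (List ℕ)} {sched : List ℕ} {k n m : ℕ} (hws : ∀ w ∈ ws, wv M.el w ∈ M.fixK ⊤ l)
    (h1 : fixErr M.nets ws prev = 0) (h2 : orbErr M.nets ws sched p k n = 0)
    (hm : m ≤ Nat.card ((M.fixK ⊤ (p :: prev ++ l)).map M.φ)) :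
    n * m ≤ Nat.card ((M.fixK ⊤ (prev ++ l)).map M.φ) := by
  have e : ∀ l', M.fixK ⊤ (l' ++ l) = M.fixK (M.fixK ⊤ l) l' := fun l' => by
    induction l' with
    | nil => rfl
    | cons a l' ih => exact congrArg (· ⊓ M.St a) ih
  rw [e] at hm ⊢
  exact M.lev_step hws h1 h2 hm

theorem fixErr_nil (nets : List Net) (ws : List (List ℕ)) : fixErr nets ws [] = 0 := rfl

/-- relators of involutive word letters -/
theorem ruleOK_of_loops {el : ℕ → G} (h0 : el 0 = 1) {rels : List (List ℕ)} {iv : ℕ}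
    (h : ∀ r ∈ ((List.range 64).map fun x => [ivf iv x, x]) ++ rels, wv el r = 1)
    (hlt : allLt rels = true) : RuleOK el rels iv :=
  ⟨h0, fun x hx => eq_inv_of_mul_eq_one_left (by
    simpa [wv] using h [ivf iv x, x] (List.mem_append_left _
      (List.mem_map.2 ⟨x, List.mem_range.2 hx, rfl⟩))),
    fun r hr => h r (List.mem_append_right _ hr), hlt⟩

end Cfsg.Agent.H58
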